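import Cfsg.Agent.O83.Sy
import Cfsg.Agent.O83.TF

/-!
The centraliser of a transvection in a Sylow 2-subgroup of `O₈⁺(2)`.
-/

set_option autoImplicit false

namespace Cfsg.Lib.O83

open Cfsg Cfsg.Lib.SporChar Cfsg.Lib.SporChar.Co Cfsg.Lib.Local Cfsg.Lib.Spor Subgroup
open scoped Pointwise

theorem iso_fix {H : Type*} [Group H] {F : Frame H} {c : H} {κ : ℕ} (h : F.Acts c κ)
    (f : ∀ i < 512, ev κd i = i → evM κ i = i % 256) :
    (∀ v < 256, evM κ v = v) ∨ ∀ v < 256, evM κ v = evM κd v := by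
  have e : ∀ w ∈ [2, 5, 9, 48, 64, 144], w < 256 ∧ evM κ w = w := fun w hw => by
    have := (by decide +kernel : ∀ w ∈ [2, 5, 9, 48, 64, 144], w < 256 ∧ ev κd w = w) w hw
    exact ⟨this.1, (f w (by omega) this.2).trans (Nat.mod_eq_of_lt this.1)⟩
  have b : ∀ v < 256, ∀ w ∈ [2, 5, 9, 48, 64, 144], bN (evM κ v) w = bN v w := fun v hv w hw => by
    rw [← bN_evM h hv (e w hw).1, (e w hw).2]
  have x := (by decide +kernel : ∀ x < 256, qN x = qN 1 →
    (∀ w ∈ [2, 5, 9, 48, 64, 144], bN x w = bN 1 w) → x = 1 ∨ x = 10) _ (evM_lt κ 1)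
    (qN_evM h (by norm_num)) (b 1 (by norm_num))
  have y := (by decide +kernel : ∀ x < 256, qN x = qN 16 →
    (∀ w ∈ [2, 5, 9, 48, 64, 144], bN x w = bN 16 w) → x = 16 ∨ x = 192) _ (evM_lt κ 16)
    (qN_evM h (by norm_num)) (b 16 (by norm_num))
  have p := bN_evM h (a := 1) (b := 16) (by norm_num) (by norm_num)
  have k : ∀ μ, (∀ w ∈ [2, 5, 9, 48, 64, 144], evM μ w = w) → evM κ 1 = evM μ 1 →
      evM κ 16 = evM μ 16 → ∀ v, evM κ v = evM μ v := fun μ h0 h1 h2 => evM_ext fun k hk => by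
    have g : ∀ w ∈ [2, 5, 9, 48, 64, 144], evM κ w = evM μ w := fun w hw =>
      (e w hw).2.trans (h0 w hw).symm
    interval_cases k
    · exact h1
    · exact g 2 (by simp)
    · rw [show 2 ^ 2 = 5 ^^^ 1 from rfl, evM_xor, evM_xor, h1, g 5 (by simp)]
    · rw [show 2 ^ 3 = 9 ^^^ 1 from rfl, evM_xor, evM_xor, h1, g 9 (by simp)]
    · exact h2
    · rw [show 2 ^ 5 = 48 ^^^ 16 from rfl, evM_xor, evM_xor, h2, g 48 (by simp)]
    · exact g 64 (by simp)
    · rw [show 2 ^ 7 = 144 ^^^ 16 from rfl, evM_xor, evM_xor, h2, g 144 (by simp)]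
  rcases x with x | x <;> rcases y with y | y
  · exact Or.inl fun v hv => (k idK (by decide +kernel) (x.trans (by decide +kernel))
      (y.trans (by decide +kernel)) v).trans (evM_idK v hv)
  · rw [x, y] at p; exact absurd p (by decide +kernel)
  · rw [x, y] at p; exact absurd p (by decide +kernel)
  · exact Or.inr fun v _ => k κd (by decide +kernel) (x.trans (by decide +kernel))
      (y.trans (by decide +kernel)) v

/-- The conjugates of the transvection under `U1`. -/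
def a2aL : List ℕ := [76, 78, 92, 94, 200, 202, 216, 218]

theorem a2a_norm {l : List ℕ} (h : (a2aL.all fun a => a2aL.contains (actV l a) &&
    chkV (l ++ [a] ++ l.reverse) [actV l a]) = true) :
    V l ∈ normalizer {x | x ∈ a2aL.map tv} := by
  have : Finite {x | x ∈ a2aL.map tv} := (List.finite_toSet _).to_subtype
  refine mem_normalizer_fintype fun x hx => ?_
  obtain ⟨a, ha, rfl⟩ := List.mem_map.1 hx
  have := List.all_eq_true.1 h a ha
  rw [Bool.and_eq_true, List.contains_iff_mem] at this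
  have e := V_eq this.2
  rw [V_append, V_append, V_reverse, V_single, V_single] at e
  exact e ▸ List.mem_map_of_mem this.1

theorem a2a_le : U1 ≤ normalizer {x | x ∈ a2aL.map tv} := by
  refine sup_le (map_le_iff_le_comap.2 (sup_le (F0.sub_le fun k hk => ?_) ((closure_le _).2 ?_)))
    (zpowers_le_of_mem (V_single 78 ▸ a2a_norm (by decide +kernel)))
  · change (W (gw k) : O8) ∈ normalizer _
    rw [coe_W]
    exact a2a_norm ((by decide +kernel : ∀ k < 8, (a2aL.all fun a =>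
      a2aL.contains (actV (fl (gw k)) a) && chkV (fl (gw k) ++ [a] ++ (fl (gw k)).reverse)
        [actV (fl (gw k)) a]) = true) k hk)
  · rintro _ (rfl | rfl | rfl) <;> change (W _ : O8) ∈ normalizer _ <;> rw [coe_W] <;>
      exact a2a_norm (by decide +kernel)

theorem a2a_card : 1024 ≤ Nat.card ↥(U1 ⊓ centralizer {tv 78}) := by
  classical
  have := card_le_mul_cent U1 (tv 78) (a2aL.map tv).toFinset fun u hu =>
    List.mem_toFinset.2 ((a2a_le hu _).1 (List.mem_map_of_mem (by decide : 78 ∈ a2aL)))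
  have l := List.toFinset_card_le (a2aL.map tv)
  rw [List.length_map, show a2aL.length = 8 from rfl] at l
  rw [sy_card1] at this
  have := Nat.mul_le_mul_right (Nat.card ↥(U1 ⊓ centralizer {tv 78})) l
  omega

theorem a2a_z {x : O8} (hx : x ∈ U1) : x * F0.z = F0.z * x := by
  obtain ⟨y, hy, rfl | rfl⟩ := (sy_mem1 x).1 hx
  · obtain ⟨ν, -, -, h, -⟩ := sy_acts1 hy
    exact h.comm_z
  · obtain ⟨ν, -, -, h, -⟩ := sy_acts1 hy
    exact (h.mul sy_acts_d).comm_z

variable {G : Type*} [Group G]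

theorem St1.fr_θ1 (S : St1 G) (i : ℕ) : S.F.fr i = S.θ1 (F0.fr i) := by rw [S.ext, S.fr_θ]

theorem St1.z_θ1 (S : St1 G) : S.F.z = S.θ1 F0.z := (S.ext _).symm

theorem St1.T_θ1 (S : St1 G) (l : List ℕ) : S.T l = S.θ1 (W l) := (S.ext _).symm

theorem St1.acts_d (S : St1 G) : S.F.Acts (S.θ1 (tv 78)) κd where
  z := by
    rw [S.z_θ1, ← map_inv, ← map_mul, ← map_mul]
    exact congrArg _ sy_acts_d.z
  g k hk := by
    rw [S.fr_θ1, ← sy_fr, ← sy_acts_d.g k hk, map_mul, map_mul, map_inv]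
    exact congrArg (_ * · * _) (S.ext _).symm

theorem St1.le_z (S : St1 G) : U1.map S.θ1 ≤ centralizer {S.F.z} := by
  rintro _ ⟨x, hx, rfl⟩
  rw [mem_centralizer_singleton_iff, S.z_θ1, ← map_mul, ← map_mul, a2a_z hx]

/-- The centraliser of the transvection in `U1`. -/
theorem St1.exists_T0 [Finite G] (_h : FSy1) (S : St1 G) : ∃ T0 : Subgroup G, IsPGroup 2 T0 ∧
    1024 ≤ Nat.card T0 ∧ T0 ≤ S.θ1.range ∧ T0 ≤ centralizer {S.θ1 (tv 78)} ∧
    T0 ≤ centralizer {S.F.z} ∧ S.θ1 (tv 78) ∈ T0 ∧ S.T (sw 0) ∈ T0 ∧ S.T (bw 6) ∈ T0 ∧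
    ∀ i < 512, ev κd i = i → S.F.fr i ∈ T0 := by
  have k : ∀ y ∈ U0, tv 78 * (y : O8) * (tv 78)⁻¹ = y →
      S.θ1 y ∈ (U1 ⊓ centralizer {tv 78}).map S.θ1 := fun y hy e =>
    ⟨y, ⟨mem_sup_left ⟨y, hy, rfl⟩,
      mem_centralizer_singleton_iff.2 (mul_inv_eq_iff_eq_mul.1 e).symm⟩, rfl⟩
  refine ⟨(U1 ⊓ centralizer {tv 78}).map S.θ1,
    ((IsPGroup.of_card (n := 13) sy_card1).to_inf_left).map _,
    a2a_card.trans_eq (card_map_of_injective S.inj1).symm, map_le_range _ _, ?_,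
    (map_mono inf_le_left).trans S.le_z,
    ⟨_, ⟨mem_sup_right (mem_zpowers _), mem_centralizer_singleton_iff.2 rfl⟩, rfl⟩,
    S.T_θ1 _ ▸ k _ (mem_sup_right (subset_closure (by simp))) (sy_dconj (by decide +kernel)),
    S.T_θ1 _ ▸ k _ (sy_bw_mem 6) (sy_dconj (by decide +kernel)),
    fun i hi e => S.fr_θ1 i ▸ k _ (mem_sup_left (F0.fr_mem hi)) ?_⟩
  · rintro _ ⟨x, hx, rfl⟩
    rw [mem_centralizer_singleton_iff, ← map_mul, ← map_mul, mem_centralizer_singleton_iff.1 hx.2]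
  · rw [← sy_fr, sy_acts_d.conj, e]

end Cfsg.Lib.O83
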