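import Cfsg.Agent.O83.A2a

/-!
A 2-subgroup of the centraliser of the transvection containing its centraliser in `U1`
centralises `z`.
-/

set_option autoImplicit false

namespace Cfsg.Lib.O83

open Cfsg Cfsg.Lib.SporChar Cfsg.Lib.SporChar.Co Cfsg.Lib.Local Cfsg.Lib.Spor Subgroup
open scoped Pointwise

variable {G : Type*} [Group G]

theorem St1.θ_ne_d (S : St1 G) (y : Om8) : S.θ y ≠ S.θ1 (tv 78) := fun e =>
  fSy1.2.2.1 (S.inj1 ((S.ext y).trans e) ▸ y.2)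

set_option synthInstance.maxSize 1000 in
theorem a2b_fix : ∀ i < 512, ev κd i = i → ev (κs 0) i = i → ev (κb 6) i = i →
    (∀ w ∈ [2, 5, 9, 48, 64, 144], mulN w i = mulN i w) → i = 0 ∨ i = 256 ∨ typ i = 3 := by
  decide +kernel

theorem St1.le_cent [Finite G] (_h : FSy1) (c : FCls) (S : St1 G) (a : S.Ab) (t : S.TF)
    (x : ∀ c κ, S.F.Acts c κ → (∀ i < 512, ev κd i = i → evM κ i = i % 256) →
      (∀ v < 256, evM κ v = v) ∨ ∀ v < 256, evM κ v = evM κd v)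
    {T0 : Subgroup G} (h1 : IsPGroup 2 T0) (h2 : 1024 ≤ Nat.card T0) (h3 : T0 ≤ S.θ1.range)
    (h4 : T0 ≤ centralizer {S.F.z}) (h5 : S.θ1 (tv 78) ∈ T0) (h6 : S.T (sw 0) ∈ T0)
    (h7 : S.T (bw 6) ∈ T0) (h8 : ∀ i < 512, ev κd i = i → S.F.fr i ∈ T0)
    {T : Subgroup G} (hT : IsPGroup 2 T) (h9 : T0 ≤ T) (_h10 : T ≤ centralizer {S.θ1 (tv 78)}) :
    T ≤ centralizer {S.F.z} := by
  by_contra k
  obtain ⟨n, nT, n1, n2⟩ := exists_mem_normalizer_of_lt hT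
    (lt_of_le_of_ne inf_le_left fun e => k (inf_eq_left.1 e))
  have l0 : T0 ≤ T ⊓ centralizer {S.F.z} := le_inf h9 h4
  have xT := (mem_normalizer_iff.1 n2 _).1
    (l0 (S.F.fr_256 ▸ h8 256 (by norm_num) (by decide +kernel)))
  have xc : ∀ a ∈ T0, a * (n * S.F.z * n⁻¹) = n * S.F.z * n⁻¹ * a := fun a ha => by
    have := mem_centralizer_singleton_iff.1 ((mem_normalizer_iff''.1 n2 a).1 (l0 ha)).2
    calc a * (n * S.F.z * n⁻¹) = n * (n⁻¹ * a * n * S.F.z) * n⁻¹ := by group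
      _ = _ := by rw [this]; group
  have p := S.lxF.conj n
  obtain ⟨κ, hκ⟩ := S.exists_acts (mem_centralizer_singleton_iff.1 xT.2)
  rcases x _ κ hκ (fun i hi e => evM_of_conj hκ hi
    (by rw [← xc _ (h8 i hi e), mul_inv_cancel_right])) with e | e
  · obtain ⟨i, hi, e⟩ := S.mem_sub_of_triv hκ fun k hk =>
      e _ (Nat.pow_lt_pow_right (by norm_num) hk : 2 ^ k < 2 ^ 8)
    have f : ∀ c ∈ T0, ∀ μ, S.F.Acts c μ → ev μ i = i := fun c hc μ hμ =>
      S.F.fr_inj (ev_lt _ _) hi (by rw [← hμ.conj, e, xc c hc, mul_inv_cancel_right])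
    rcases a2b_fix i hi
      (f _ h5 _ S.acts_d) (f _ h6 _ (S.acts_s (by norm_num))) (f _ h7 _ (S.acts_b (by norm_num)))
      (fun w hw => by
        have := (by decide +kernel : ∀ w ∈ [2, 5, 9, 48, 64, 144], w < 512 ∧ ev κd w = w) w hw
        refine S.F.fr_inj (mulN_lt this.1 hi) (mulN_lt hi this.1) ?_
        rw [← S.F.fr_mul, ← S.F.fr_mul, e, xc _ (h8 w this.1 this.2)]) with rfl | rfl | r
    · exact p.ne_one (e.symm.trans S.F.fr_zero)
    · exact n1 ⟨nT, mem_centralizer_singleton_iff.2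
        (mul_inv_eq_iff_eq_mul.1 (e.symm.trans S.F.fr_256))⟩
    · refine t.1 ((isConj_iff.2 ⟨n, e.symm⟩).trans ?_)
      rw [S.fr_θ, S.fr_θ]
      exact (S.θ.map_isConj ((c i hi).2.2.1 r)).symm
  · obtain ⟨q, hq⟩ := S.sub_le (S.mem_sub_of_triv (hκ.mul S.acts_d) fun k hk => by
      rw [evM_mul hκ S.acts_d (hκ.mul S.acts_d), e _ (evM_lt _ _)]
      exact (by decide +kernel : ∀ k < 8, evM κd (evM κd (2 ^ k)) = 2 ^ k) k hk)
    have sq : ∀ a ∈ T0 ⊓ MulAut.conj n • S.F.sub, a⁻¹ = a := fun a ha => by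
      refine inv_eq_of_mul_eq_one_right ((p.mem_iff.1 (p.sq_mem a ha.2)).resolve_right fun e => ?_)
      obtain ⟨b, rfl⟩ := h3 ha.1
      refine S.θ_ne_d ((⟨b * b, mul_self_mem_of_index_two index_Om8 b⟩ : Om8)⁻¹ * q) ?_
      rw [map_mul, map_inv, ← S.ext, hq, map_mul, e, inv_mul_cancel_left]
    exact St.elim_1024 a (g := n) h1 h2 (fun a ha => mem_centralizer_singleton_iff.2 (xc a ha))
      fun u hu v hv => by rw [← sq _ (mul_mem hu hv), mul_inv_rev, sq u hu, sq v hv]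

end Cfsg.Lib.O83
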