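import Cfsg.Agent.O83.Ab
import Cfsg.Agent.Trans.TransferTools

/-!
The transvections are not fused into `Ω₈⁺(2)`; transfer.
-/

set_option autoImplicit false

namespace Cfsg.Lib.O83

open Cfsg Cfsg.Lib.SporChar Cfsg.Lib.SporChar.Co Cfsg.Lib.Local Cfsg.Lib.Spor Subgroup
open scoped Pointwise commutatorElement

variable {G : Type*} [Group G] [Finite G]

theorem a2d_sq (i : FInv) (c : FCls) (x : Om8) (hx : x * x = 1) : ∃ y : Om8, y * y = x := by
  have t : ∀ {a b : Om8}, IsConj a b → (∃ y, y * y = a) → ∃ y, y * y = b := fun h ⟨y, e⟩ => by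
    obtain ⟨g, rfl⟩ := isConj_iff.1 h
    exact ⟨g * y * g⁻¹, by rw [conj_mul, e]⟩
  have s : ∀ {l : List ℕ} {n : ℕ}, chk (l ++ l) (frw n) = true → ∃ y, y * y = F0.fr n :=
    fun {l n} h => ⟨W l, by rw [← W_append, fr_F0, W_eq h]⟩
  obtain ⟨n, hn, e⟩ := i x hx
  refine t e ?_
  have h2 : typ n ≤ 5 := by
    obtain ⟨g, rfl⟩ := isConj_iff.1 e
    rw [conj_mul, conj_eq_one_iff] at hx
    exact (sq_iff F0 hn).1 hx
  obtain ⟨c1, c2, c3, c4, c5⟩ := c n hn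
  have z : ∃ y, y * y = F0.z := F0.fr_256 ▸ s (l := frw 17) (by decide +kernel)
  interval_cases h : typ n
  · rcases (typ_zero n hn).1 h with rfl | rfl
    exacts [⟨1, by rw [F0.fr_zero, mul_one]⟩, F0.fr_256 ▸ z]
  · exact t (c1 rfl) z
  · exact t (c2 rfl) (s (l := frw 88 ++ bw 3) (by decide +kernel))
  · exact t (c3 rfl) (s (l := frw 209 ++ bw 1) (by decide +kernel))
  · exact t (c4 rfl) (s (l := frw 83 ++ bw 2) (by decide +kernel))
  · exact t (c5 rfl) (s (l := frw 90 ++ bw 3) (by decide +kernel))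

omit [Finite G] in
theorem St1.acts_d' (h : FSy1) (S : St1 G) : S.F.Acts (S.θ1 (tv 78)) κd := by
  have a := h.2.2.2
  refine ⟨?_, fun k hk => ?_⟩
  · rw [S.z_θ, ← S.ext, ← map_inv, ← map_mul, ← map_mul]; exact congrArg _ a.z
  · have := a.g k hk
    rw [Frame.fr_map] at this
    rw [S.fr_θ, ← S.ext]
    change _ * S.θ (F0.g k) * _ = _
    rw [← S.ext, ← map_inv, ← map_mul, ← map_mul]; exact congrArg _ this

theorem St1.elim' [IsSimpleGroup G] (h0 : FSy) (h : FSy1) (i : FInv) (c : FCls) (S : St1 G)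
    (y : ∀ y : G, y * y = S.θ1 (tv 78) → ∃ k, k * S.θ1 (tv 78) = S.θ1 (tv 78) * k ∧
      k * y * k⁻¹ * S.F.z = S.F.z * (k * y * k⁻¹)) : False := by
  have hK : ∀ x : O8, S.θ1 x ∈ S.K ↔ x ∈ Om8 := fun x =>
    ⟨fun ⟨w, e⟩ => S.inj1 ((S.ext w).trans e) ▸ w.2, fun k => ⟨⟨x, k⟩, (S.ext ⟨x, k⟩).symm⟩⟩
  have hd : S.θ1 (tv 78) * S.θ1 (tv 78) = 1 := by rw [← map_mul, tv_sq, map_one]
  have h1 : S.θ1 (tv 78) ≠ 1 := fun e => h.2.2.1 ((hK _).1 (e ▸ one_mem _))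
  have hc : commutator G = ⊤ := by
    refine (Subgroup.Normal.eq_bot_or_eq_top inferInstance).resolve_left fun e => ?_
    have : ⁅S.F.g 0, S.F.g 4⁆ ∈ commutator G := commutator_mem_commutator (mem_top _) (mem_top _)
    rw [e, mem_bot, commutatorElement_def, S.F.rel 0 (by norm_num), mul_inv_eq_one,
      mul_eq_left] at this
    exact S.F.ne this
  obtain ⟨a, -, ⟨x, hx⟩, -⟩ := Trans.thompson_transfer_involution (H := S.θ1.range) (T := S.K)
    (Nat.two_dvd_ne_zero.2 (Nat.odd_iff.1 S.odd))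
    (by
      rintro _ ⟨u, rfl⟩ _ ⟨v, rfl⟩
      rw [← map_commutatorElement, hK]
      exact commutator_mem_commutator (mem_top _) (mem_top _))
    (by
      rintro _ ⟨u, rfl⟩
      exact ⟨1, by rw [← map_pow, hK, pow_one, pow_two, mul_mem_iff_of_index_two index_Om8]⟩)
    (S.θ1 (tv 78)) (orderOf_eq_prime (by rw [pow_two, hd]) h1)
    (by
      rintro _ ⟨u, rfl⟩ _ ⟨v, rfl⟩ - - a b
      rw [hK] at a b
      rw [← map_mul, hK, mul_mem_iff_of_index_two index_Om8]; tauto)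
    (by rw [hc, top_sup_eq]; trivial) ⊥ IsPGroup.of_bot (by simp)
  obtain ⟨w, rfl⟩ := a2d_sq i c x (S.inj (by
    rw [map_mul, hx, map_one, show ∀ a d : G, a⁻¹ * d * a * (a⁻¹ * d * a) = a⁻¹ * (d * d) * a from
      fun _ _ => by group, hd]; simp))
  obtain ⟨k, k1, k2⟩ := y (a * S.θ w * a⁻¹) (by rw [conj_mul, ← map_mul, hx]; group)
  set u := k * (a * S.θ w * a⁻¹) * k⁻¹
  have hu : u * u = S.θ1 (tv 78) := by
    rw [conj_mul, conj_mul, ← map_mul, hx, show a * (a⁻¹ * S.θ1 (tv 78) * a) * a⁻¹ = S.θ1 (tv 78) by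
      group, k1, mul_inv_cancel_right]
  have c1 : Nat.card (U1.map S.θ1) = 8192 := (card_map_of_injective S.inj1).trans h.2.1
  have m0 : ∀ x ∈ U0, ∃ i < 512, ∃ j < 8, S.θ1 x = S.F.fr i * S.T (bw j) := fun x hx => by
    obtain ⟨i, hi, j, hj, rfl⟩ := (h0.1 x).1 hx
    exact ⟨i, hi, j, hj, by rw [S.ext, map_mul, S.fr_θ]; rfl⟩
  have s : Trans.IsSylowIn 2 (U1.map S.θ1) ⊤ := by
    refine ⟨le_top, .of_card (n := 13) c1, ?_⟩
    have h1 := (U1.map S.θ1).card_mul_index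
    have h2 := S.θ1.range.card_mul_index
    obtain ⟨k, hk⟩ := S.odd
    rw [← Nat.card_congr (MonoidHom.ofInjective S.inj1).toEquiv, card_O8, hk] at h2
    rw [c1] at h1
    rw [relIndex_top_right]
    omega
  have p : IsPGroup 2 (zpowers u) := by
    refine IsPGroup.iff_card.2 ?_
    rw [Nat.card_zpowers]
    have : orderOf u ∣ 2 ^ 2 := orderOf_dvd_of_pow_eq_one (by
      rw [show 2 ^ 2 = 2 * 2 from rfl, pow_mul, pow_two u, hu, pow_two, hd])
    obtain ⟨k, -, e⟩ := (Nat.dvd_prime_pow Nat.prime_two).1 this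
    exact ⟨k, e⟩
  obtain ⟨g, hg, e⟩ := (s.mono (K := centralizer {S.F.z}) (by
    rintro _ ⟨x, hx, rfl⟩
    have hz : ∀ x ∈ U0, S.θ1 x ∈ centralizer {S.F.z} := fun x hx => by
      obtain ⟨i, -, j, hj, e⟩ := m0 x hx
      exact e ▸ mul_mem (mem_centralizer_singleton_iff.2 (S.F.z_comm i))
        (mem_centralizer_singleton_iff.2 (S.acts_b hj).comm_z)
    obtain ⟨v, hv, rfl | rfl⟩ := (h.1 x).1 hx
    · exact hz v hv
    · rw [map_mul]
      exact mul_mem (hz v hv) (mem_centralizer_singleton_iff.2 (S.acts_d' h).comm_z))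
    le_top).exists_cj_le p (zpowers_le.2 (mem_centralizer_singleton_iff.2 k2))
  obtain ⟨v, hv, ev⟩ := Trans.cj_le_iff.1 e u (mem_zpowers u)
  obtain ⟨v', hv', e'⟩ := (h.1 _).1 (mul_mem hv hv)
  have m : v * v ∈ Om8 := (mul_mem_iff_of_index_two index_Om8).2 Iff.rfl
  replace e' := e'.resolve_right fun e => h.2.2.1 ((Om8.mul_mem_cancel_left v'.2).1 (e ▸ m))
  obtain ⟨n, hn, j, hj, f⟩ := m0 v' hv'
  rw [← e', map_mul, ev, conj_mul, hu] at f
  obtain ⟨κ, a1⟩ := S.exists_acts (mem_centralizer_singleton_iff.1 hg)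
  have a2 := (S.F.acts_fr hn).mul (S.acts_b hj)
  have n1 := nfix_conj a1 (S.acts_d' h) (f ▸ a2)
  rw [nfix_congr fun v _ => evM_fr_mul (S.acts_b hj) hn a2 v, nfix_b.2.2] at n1
  by_cases j0 : j = 0
  · rw [j0, nfix_b.1] at n1; omega
  · rw [nfix_b.2.1 j hj j0] at n1; omega

end Cfsg.Lib.O83
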