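import Cfsg.Agent.O83.Bas
import Cfsg.Agent.Trans.SylowIn

/-!
Abelian subgroups of `Q`, Sylow subgroups of `C(z)`, and the conjugates of `z` in `Q`.
-/

set_option autoImplicit false

namespace Cfsg.Lib.O83

open Cfsg Cfsg.Lib.SporChar Cfsg.Lib.SporChar.Co Cfsg.Lib.Local Cfsg.Lib.Spor Subgroup
open scoped Pointwise

variable {G : Type*} [Group G] [Finite G]

theorem Ab_le {Q A : Subgroup G} {z : G} (h : PreLX Q z) (c : Nat.card Q = 512) (hA : A ≤ Q)
    (ab : ∀ a ∈ A, ∀ b ∈ A, a * b = b * a) : Nat.card A ≤ 32 := by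
  have hU : A ⊔ zpowers z ≤ Q := sup_le hA (zpowers_le.2 h.mem)
  have h1 := h.toSympPair.card_centralizer_mul_le le_rfl _ (A ⊔ zpowers z) le_sup_right hU rfl
  rw [h.center_eq, Nat.card_zpowers, h.ord, c] at h1
  have c1 : A ⊔ zpowers z ≤ centralizer (A : Set G) := sup_le (fun a ha b hb => ab b hb a ha)
    (zpowers_le.2 fun b hb => h.central b (hA hb))
  have c2 : A ≤ Q ⊓ centralizer ((A ⊔ zpowers z : Subgroup G) : Set G) :=
    le_inf hA (le_centralizer_iff.1 c1)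
  have h2 := Nat.mul_le_mul (Trans.card_le_of_le c2) (Trans.card_le_of_le (le_sup_left : A ≤ A ⊔ zpowers z))
  nlinarith

theorem St.ab (S : St G) : S.Ab := fun g _ hA ab =>
  Ab_le (S.lxF.conj g) ((Nat.card_congr (equivSMul (MulAut.conj g) S.F.sub).toEquiv).symm.trans
    S.F.card_sub) hA ab

theorem St.syl (h : FSy) {S : St G} (o : S.Od) : S.Syl := by
  intro P hP hz
  have c : Nat.card (U0.map S.θ) = 4096 := (card_map_of_injective S.inj).trans h.2
  have m : ∀ x ∈ U0.map S.θ, ∃ i < 512, ∃ j < 8, x = S.F.fr i * S.T (bw j) := by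
    rintro _ ⟨x, hx, rfl⟩
    obtain ⟨i, hi, j, hj, rfl⟩ := (h.1 x).1 hx
    exact ⟨i, hi, j, hj, by rw [map_mul, S.fr_θ]; rfl⟩
  have s : Trans.IsSylowIn 2 (U0.map S.θ) ⊤ := by
    refine ⟨le_top, .of_card (n := 12) c, ?_⟩
    have h1 := (U0.map S.θ).card_mul_index
    have h2 := S.K.card_mul_index
    obtain ⟨k, hk⟩ := o
    rw [← Nat.card_congr (MonoidHom.ofInjective S.inj).toEquiv, card_Om8, hk] at h2
    rw [c] at h1
    rw [relIndex_top_right]
    omega
  obtain ⟨x, hx, e⟩ := (s.mono (K := centralizer {S.F.z}) (fun x hx => by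
    obtain ⟨i, -, j, hj, rfl⟩ := m x hx
    exact mul_mem (mem_centralizer_singleton_iff.2 (S.F.z_comm i))
      (mem_centralizer_singleton_iff.2 (S.acts_b hj).comm_z)) le_top).exists_cj_le hP hz
  exact ⟨x, mem_centralizer_singleton_iff.1 hx, fun y hy => m _ (Trans.cj_le_iff.1 e y hy)⟩

omit [Finite G] in
theorem St.pt (c : FCls) {S : St G} (t : S.TF) : (¬ S.II → S.Pt 1) ∧ (S.II → S.Pt 2) := by
  have k : ∀ {a b : ℕ}, IsConj (F0.fr a) (F0.fr b) → IsConj (S.F.fr a) (S.F.fr b) := fun h => by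
    rw [S.fr_θ, S.fr_θ]; exact S.θ.map_isConj h
  have a : ∀ i < 512, i = 256 ∨ typ i = 1 → IsConj S.F.z (S.F.fr i) := by
    rintro i hi (rfl | e)
    · rw [Frame.fr_256]
    · rw [S.fr_θ]; exact S.θ.map_isConj ((c i hi).1 e)
  have b : ∀ i < 512, IsConj S.F.z (S.F.fr i) → i = 256 ∨ typ i = 1 ∨ typ i = 2 ∧ S.II := by
    intro i hi e
    obtain ⟨g, hg⟩ := isConj_iff.1 e
    have h5 := (sq_iff S.F hi).1 (by rw [← hg, conj_mul, S.F.zz]; group)
    obtain ⟨-, c2, c3, c4, c5⟩ := c i hi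
    have : typ i = 0 ∨ typ i = 1 ∨ typ i = 2 ∨ typ i = 3 ∨ typ i = 4 ∨ typ i = 5 := by omega
    rcases this with h | h | h | h | h | h
    · refine .inl (((typ_zero i hi).1 h).resolve_left ?_)
      rintro rfl
      rw [Frame.fr_zero, conj_eq_one_iff] at hg
      exact S.F.ne hg
    · exact .inr (.inl h)
    · exact .inr (.inr ⟨h, e.trans (k (c2 h)).symm⟩)
    · exact (t.1 (e.trans (k (c3 h)).symm)).elim
    · exact (t.2.1 (e.trans (k (c4 h)).symm)).elim
    · exact (t.2.2 (e.trans (k (c5 h)).symm)).elim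
  refine ⟨fun n i hi => ⟨fun e => ?_, fun e => a i hi (by tauto)⟩, fun n i hi => ⟨fun e => ?_, ?_⟩⟩
  · have := b i hi e; tauto
  · have := b i hi e; tauto
  · rintro (e | e | e)
    exacts [a i hi (.inl e), a i hi (.inr e), IsConj.trans n (k ((c i hi).2.1 e))]

end Cfsg.Lib.O83
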