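import Cfsg.Agent.O83.Bas
import Cfsg.Agent.Trans.SylowIn
import Cfsg.Agent.Solv.Cores
import Cfsg.Prelude.Def_LocalStructure

/-! Parabolic characteristic two makes the extraspecial subgroup large. -/

set_option autoImplicit false

namespace Cfsg.Lib.O83

open Cfsg Cfsg.Lib.SporChar Cfsg.Lib.SporChar.Co Cfsg.Lib.Local Cfsg.Lib.Spor Subgroup
open scoped Pointwise

variable {G : Type*} [Group G] [Finite G]

theorem B_fix (F : Frame G) {P : Subgroup G} (hP : IsPGroup 2 P) (hN : P ≤ normalizer (F.sub : Set G)) :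
    ∃ v < 256, v ≠ 0 ∧ ∀ r ∈ P, ∀ κ, F.Acts r κ → evM κ v = v := by
  obtain ⟨b, hb, n⟩ := ((Trans.isPGroup_subgroupOf hP _).map F.orth).exists_fixed_point_of_prime_dvd_card_of_fixed_point
    (Fin 4 ⊕ Fin 4 → ZMod 2) (by simp) (a := vec 0) fun g => by
      rw [vec_256.1]; exact smul_zero (g : O8)
  obtain ⟨v, hv, rfl⟩ := vec_surj b
  refine ⟨v, hv, fun e => n (e ▸ rfl), fun r hr κ k => vec_inj (evM_lt _ _) hv ?_⟩
  rw [evM_eq, vec_mod, ← Frame.orth_smul (c := ⟨r, hN hr⟩) k]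
  exact hb ⟨_, mem_map_of_mem _ (show (⟨r, hN hr⟩ : normalizer (F.sub : Set G)) ∈ P.subgroupOf _ from hr)⟩

theorem preLX_of_par (i : FIrr) (hG : IsOfParabolicCharacteristic 2 G) (θ : Om8 →* G)
    (inj : Function.Injective θ) (P : Subgroup G) (hP : IsPGroup 2 P) (o : Odd P.index)
    (hQ : F0.sub.map θ ≤ P) (hN : P ≤ normalizer (F0.sub.map θ : Set G))
    (hC : P ⊓ centralizer (F0.sub.map θ : Set G) ≤ zpowers (θ F0.z)) :
    PreLX (F0.sub.map θ) (θ F0.z) := by
  have h1 : θ F0.z ≠ 1 := fun h => F0.ne (inj (h.trans (map_one _).symm))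
  have ht : ∀ k < 3, (∃ t, (F0.map θ h1).Acts t (κτ k)) ∧ ∃ t, (F0.map θ h1).Acts t (κs k) := fun k hk =>
    ⟨⟨_, (acts_F0 (actsB_τ k hk)).map θ h1⟩, _, (acts_F0 (actsB_s k hk)).map θ h1⟩
  rw [← F0.sub_map θ h1] at hQ hN hC ⊢
  change _ ≤ zpowers (F0.map θ h1).z at hC
  change PreLX _ (F0.map θ h1).z
  generalize F0.map θ h1 = F at *
  have mN : ∀ {g}, g * F.z = F.z * g → g ∈ normalizer (zpowers F.z : Set G) := fun e =>
    centralizer_le_normalizer _ (centralizer_zpowers_eq_sing F.z ▸ mem_centralizer_singleton_iff.2 e)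
  have cN : ∀ g ∈ normalizer (zpowers F.z : Set G), g * F.z = F.z * g := fun g hg => by
    rcases F.mem_zpowers.1 ((mem_normalizer_iff.1 hg _).1 (mem_zpowers _)) with e | e
    exacts [absurd (conj_eq_one_iff.1 e) F.ne, mul_inv_eq_iff_eq_mul.1 e]
  have PN : P ≤ normalizer (zpowers F.z : Set G) := fun g hg =>
    mN (mem_centralizer_singleton_iff.1 (F.normalizer_le (hN hg)))
  have sP : Trans.IsSylowIn 2 P ⊤ := ⟨le_top, hP, by rw [relIndex_top_right]; exact o.not_two_dvd_nat⟩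
  obtain ⟨R, hR⟩ : ∃ R, R = (pCore 2 (normalizer (zpowers F.z : Set G))).map (Subgroup.subtype _) := ⟨_, rfl⟩
  have nR : ∀ {g}, g * F.z = F.z * g → g ∈ normalizer (R : Set G) := fun {g} e =>
    hR ▸ le_normalizer_map _ ⟨⟨g, mN e⟩, (normalizer_eq_top _).ge (mem_top _), rfl⟩
  have RP : R ≤ P := (sP.mono PN le_top).le_of_normal (hR ▸ (Solv.pCore_isPGroup 2 _).map _)
    (hR ▸ map_subtype_le _) fun g hg => nR (cN g hg)
  have cR : ∀ c, c * F.z = F.z * c → (∀ r ∈ R, r * c = c * r) → c ∈ R := fun c e k => by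
    obtain ⟨T, hT⟩ := sP.exists_sylow_eq
    exact hR ▸ mem_map_of_mem _ (hG _ (F.isPGroup_sub.to_le (zpowers_le.2 F.sympPair.mem))
      (mt zpowers_eq_bot.1 F.ne) ⟨T, hT ▸ PN⟩ (x := ⟨c, mN e⟩)
      fun r hr => Subtype.ext (k _ (hR ▸ mem_map_of_mem _ hr)))
  have zR := cR _ rfl fun r hr => cN r (PN (RP hr))
  obtain ⟨v, hv, v0, fx⟩ := B_fix F hP hN
  have k1 := i (fun v => ∀ r ∈ R, ∀ κ, F.Acts r κ → evM κ v = v)
    (fun a _ b _ ha hb r hr κ k => by rw [evM_xor, ha r hr κ k, hb r hr κ k]) (fun k hk a _ ha => by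
      have : ∀ μ, (∃ t, F.Acts t μ) → ∀ r ∈ R, ∀ κ, F.Acts r κ → evM κ (evM μ a) = evM μ a :=
        fun μ ⟨t, h⟩ r hr κ k => by
          have m := Trans.mem_normalizer_conj' (nR h.comm_z) hr
          obtain ⟨ν, l⟩ := Frame.exists_acts (hN (RP m))
          rw [← evM_mul k h (k.mul h), evM_mul h l (by convert k.mul h using 1; group), ha _ m _ l]
      exact ⟨this _ (ht k hk).1, this _ (ht k hk).2⟩) v hv v0 fun r hr => fx r (RP hr)
  have RQ : R ≤ F.sub := fun r hr => by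
    obtain ⟨κ, k⟩ := Frame.exists_acts (hN (RP hr))
    obtain ⟨q, hq, e⟩ := exists_inner k fun j hj =>
      k1 _ (Nat.pow_lt_pow_right (a := 2) (n := 8) (by decide) hj) r hr κ k
    exact (F.sub.mul_mem_cancel_left (inv_mem hq)).1
      (zpowers_le.2 F.sympPair.mem (hC ⟨P.mul_mem (P.inv_mem (hQ hq)) (RP hr), e⟩))
  have QR : F.sub ≤ R := by
    by_cases e : ∃ v < 256, v ≠ 0 ∧ F.fr v ∈ R
    · obtain ⟨v, hv, v0, e⟩ := e
      have := i (fun v => F.fr v ∈ R) (fun a _ b _ ha hb => by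
        have := mul_mem ha hb
        rw [F.fr_mul, mulN_eq] at this
        rcases par_cases (a / 16 &&& b) with e | e <;> rw [e] at this
        exacts [by simpa using this, by rwa [one_mul, F.fr_xor_256, mul_mem_cancel_right zR] at this])
        (fun k hk a _ ha => by
          have : ∀ μ, (∃ t, F.Acts t μ) → F.fr (evM μ a) ∈ R := fun μ ⟨t, h⟩ => by
            have m := Trans.mem_normalizer_conj (nR h.comm_z) ha
            rcases conj_fr h a with e | e <;> rw [e] at m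
            exacts [m, (mul_mem_cancel_right zR).1 m]
          exact ⟨this _ (ht k hk).1, this _ (ht k hk).2⟩) v hv v0 e
      exact F.sub_le fun k hk => F.fr_pow (by omega : k < 9) ▸
        this _ (Nat.pow_lt_pow_right (a := 2) (n := 8) (by decide) hk)
    · refine fun q hq => cR q (F.sympPair.central q hq) fun r hr => ?_
      obtain ⟨j, hj, rfl⟩ := F.mem_sub.1 (RQ hr)
      have : ∀ j < 512, j = 0 ∨ j = 256 ∨ (j < 256 ∧ j ≠ 0) ∨ (j ^^^ 256 < 256 ∧ j ^^^ 256 ≠ 0) := by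
        decide +kernel
      rcases this j hj with rfl | rfl | k | k
      exacts [by simp [F.fr_zero], F.fr_256 ▸ (F.sympPair.central q hq).symm, absurd ⟨j, k.1, k.2, hr⟩ e,
        absurd ⟨_, k.1, k.2, F.fr_xor_256 j ▸ mul_mem hr zR⟩ e]
  obtain rfl := le_antisymm RQ QR
  exact ⟨F.sympPair, fun c hc => F.center_le ⟨cR c (hc _ zR).symm hc, hc⟩,
    fun c hc => nR (mem_centralizer_singleton_iff.1 hc), F.not_le_zpowers⟩

end Cfsg.Lib.O83
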