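import Cfsg.Agent.O83.Bas

/-!
The first case: the centraliser of `z` normalises the image of `Ω₈⁺(2)`.
-/

set_option autoImplicit false

namespace Cfsg.Lib.O83

open Cfsg Cfsg.Lib.SporChar Cfsg.Lib.SporChar.Co Cfsg.Lib.Local Cfsg.Lib.Spor Subgroup
open scoped Pointwise

variable {G : Type*} [Group G]

theorem St.cent_le (g : FGen) (c : FCls) {S : St G} (p : S.Pt 1) :
    centralizer {S.F.z} ≤ normalizer (S.K : Set G) := by
  let Y : Subgroup G :=
    closure {x | ∃ g, g * S.F.z * g⁻¹ ∈ S.F.sub ∧ ∃ q ∈ S.F.sub, x = g * q * g⁻¹}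
  have n : ∀ a ∈ centralizer ({S.F.z} : Set G), ∀ x ∈ Y, a * x * a⁻¹ ∈ Y := by
    intro a ha x hx
    induction hx using closure_induction with
    | mem x hx =>
      obtain ⟨g, h1, q, hq, rfl⟩ := hx
      refine subset_closure ⟨a * g, ?_, q, hq, by group⟩
      have := (mem_normalizer_iff.1 (S.lxF.norm ha) _).1 h1
      rwa [show a * (g * S.F.z * g⁻¹) * a⁻¹ = a * g * S.F.z * (a * g)⁻¹ by group] at this
    | one => simp
    | mul x y _ _ hx hy => simpa [mul_assoc] using mul_mem hx hy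
    | inv x _ hx => simpa [mul_assoc] using inv_mem hx
  have n' : centralizer ({S.F.z} : Set G) ≤ normalizer (Y : Set G) := fun a ha =>
    mem_normalizer_iff.2 fun x => ⟨n a ha x, fun hx => by simpa [mul_assoc] using n _ (inv_mem ha) _ hx⟩
  have le : Y ≤ S.K := by
    refine (closure_le _).2 ?_
    rintro _ ⟨g, ⟨i, hi, e⟩, q, hq, rfl⟩
    obtain ⟨k, hk, e1⟩ : ∃ k ∈ S.K, k * S.F.z * k⁻¹ = S.F.fr i := by
      rcases (p i hi).1 (isConj_iff.2 ⟨g, e.symm⟩) with rfl | t | t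
      · exact ⟨1, one_mem _, by simp [Frame.fr_256]⟩
      all_goals rw [S.fr_θ]; exact S.isConj_θ ((c i hi).1 t)
    have m : k⁻¹ * g ∈ centralizer ({S.F.z} : Set G) := mem_centralizer_singleton_iff.2 (by
      calc _ = k⁻¹ * (g * S.F.z * g⁻¹) * g := by group
        _ = _ := by rw [← e, ← e1]; group)
    have := S.sub_le ((mem_normalizer_iff.1 (S.lxF.norm m) _).1 hq)
    have := mul_mem (mul_mem hk this) (inv_mem hk)
    rwa [show k * (k⁻¹ * g * q * (k⁻¹ * g)⁻¹) * k⁻¹ = g * q * g⁻¹ by group] at this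
  have m0 : ∀ x : Om8, S.θ x ∈ normalizer (Y : Set G) → x ∈ normalizer (Y.comap S.θ : Set Om8) :=
    fun x hx => mem_normalizer_iff.2 fun y => by
      simpa using mem_normalizer_iff.1 hx (S.θ y)
  have q0 : F0.sub ≤ Y.comap S.θ := fun x hx =>
    subset_closure ⟨1, by simpa using S.lxF.mem, S.θ x, S.sub_eq ▸ mem_map_of_mem _ hx, by simp⟩
  have t := g (normalizer (Y.comap S.θ : Set Om8)) (q0.trans le_normalizer)
    (fun k hk => ⟨m0 _ (n' (mem_centralizer_singleton_iff.2 (S.acts_τ hk).comm_z)),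
      m0 _ (n' (mem_centralizer_singleton_iff.2 (S.acts_s hk).comm_z))⟩)
    (le_normalizer (subset_closure ⟨S.T nw, S.nw_z ▸ S.F.fr_mem (by norm_num), S.T (gw 4),
      S.F.g_mem (k := 4) (by norm_num), S.T_cj _ _⟩))
  have top := (normalizer_eq_top_iff.1 t).eq_bot_or_eq_top.resolve_left fun e =>
    F0.ne (mem_bot.1 (e ▸ q0 (F0.g_mem (by norm_num))))
  have : Y = S.K := le_antisymm le (by
    rintro _ ⟨x, rfl⟩
    exact (top.ge (mem_top x) : x ∈ Y.comap S.θ))
  rwa [this] at n'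

end Cfsg.Lib.O83
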