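import Cfsg.Agent.O83.Bas
import Cfsg.Agent.Trans.SylowIn
import Cfsg.Agent.A10S.TwB

/-! The second case: an element of the centraliser moving a pure vector. -/

set_option autoImplicit false

namespace Cfsg.Lib.O83

open Cfsg Cfsg.Lib.SporChar Cfsg.Lib.SporChar.Co Cfsg.Lib.Local Cfsg.Lib.Spor Subgroup
open scoped Pointwise

variable {G : Type*} [Group G] [Finite G]

theorem St.mv {S : St G} (a : S.Ab) (s : S.Syl) (_c : FCls) (h : S.II) : S.Mv := by
  obtain ⟨g, hg⟩ := isConj_iff.1 h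
  have L := S.lxF
  have R := hg ▸ L.conj g
  have uz : S.F.fr 427 ≠ S.F.z := fun e => absurd (S.F.fr_inj (by decide) (by decide)
    (e.trans S.F.fr_256.symm)) (by decide)
  have uQ := S.F.fr_mem (i := 427) (by decide)
  have zR := L.mem_conj (hg ▸ uz) (hg ▸ uQ)
  have cR : Nat.card (MulAut.conj g • S.F.sub : Subgroup G) = 512 := by
    rw [Trans.conj_smul_eq_cj, Trans.card_cj, S.F.card_sub]
  generalize MulAut.conj g • S.F.sub = R' at R zR cR
  obtain ⟨u, hu⟩ : ∃ u, u = S.F.fr 427 := ⟨_, rfl⟩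
  rw [← hu] at R uz uQ
  have c1 : 256 ≤ Nat.card ↥(R' ⊓ centralizer {S.F.z}) := by
    have k := Trans.card_mul_relIndex (inf_le_left : R' ⊓ centralizer {S.F.z} ≤ R')
    have : (R' ⊓ centralizer {S.F.z}).relIndex R' ≤ 2 := by
      by_cases e : R' ≤ centralizer {S.F.z}
      · rw [inf_eq_left.2 e, relIndex_self]; decide
      · obtain ⟨x, hx, n⟩ := SetLike.not_le_iff_exists.1 e
        refine (relIndex_eq_two_iff.2 ⟨x, hx, fun y hy => ?_⟩).le
        simp only [mem_inf, mem_centralizer_singleton_iff, hy, mul_mem hy hx, true_and] at n ⊢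
        have k := (R.comm_or hx zR).resolve_left n
        rcases R.comm_or hy zR with l | l
        · refine .inr ⟨l, fun e => n ?_⟩
          rwa [mul_assoc, ← mul_assoc S.F.z, ← l, mul_assoc, mul_right_inj] at e
        · refine .inl ⟨mul_inv_eq_iff_eq_mul.1 ?_, fun e => R.ne_one ?_⟩
          · calc _ = y * (x * S.F.z * x⁻¹) * y⁻¹ := by group
              _ = y * u * y⁻¹ * (y * S.F.z * y⁻¹) := by rw [k]; group
              _ = _ := by rw [l, R.central y hy, mul_inv_cancel_right, ← mul_assoc, R.mul_self, one_mul]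
          · rwa [e, mul_inv_cancel_right, eq_comm, mul_eq_right] at l
    nlinarith
  have c2 := a 1 (R' ⊓ centralizer {S.F.z} ⊓ S.F.sub) (by rw [map_one, one_smul]; exact inf_le_right)
    fun x hx y hy => by
      rcases R.comm_or hx.1.1 hy.1.1 with e | e
      · exact e
      · exact (L.comm_or hx.2 hy.2).resolve_right fun e' => uz (mul_right_cancel (e.symm.trans e'))
  have c3 := A10S.TwB.card_sup (R' ⊓ centralizer {S.F.z}) S.F.sub
  rw [S.F.card_sub] at c3
  have l1 : R' ⊓ centralizer {S.F.z} ⊔ S.F.sub ≤ centralizer {S.F.z} := sup_le inf_le_right L.le_cent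
  obtain ⟨c, hc, k⟩ := s _ ((R.isPGroup.to_le inf_le_left).to_sup_of_normal_right' L.isPGroup
    (inf_le_right.trans L.norm)) l1
  choose! i hi j hj e using k
  let f : ↥(R' ⊓ centralizer {S.F.z} ⊔ S.F.sub) → Fin 512 × Fin 8 := fun x => (⟨i x, hi x x.2⟩, ⟨j x, hj x x.2⟩)
  have inj : Function.Injective f := fun x y k => Subtype.ext ((MulAut.conj c).injective (by
    change c * x * c⁻¹ = c * y * c⁻¹
    rw [e x x.2, e y y.2, show i x = i y from congrArg (·.1.1) k, show j x = j y from congrArg (·.2.1) k]))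
  have sur := (inj.bijective_of_nat_card_le (by
    rw [Nat.card_prod, Nat.card_fin, Nat.card_fin]; nlinarith)).2
  have mv : ∀ x ∈ R' ⊓ centralizer {S.F.z} ⊔ S.F.sub, x * u * x⁻¹ * u⁻¹ ∈ zpowers S.F.z := fun x hx => by
    obtain ⟨y, hy, q, hq, rfl⟩ := (coe_mul_of_left_le_normalizer_right _ _ (inf_le_right.trans L.norm)).le hx
    have := L.comm_mem hq uQ
    have e : y * q * u * (y * q)⁻¹ * u⁻¹ = y * (q * u * q⁻¹ * u⁻¹) * y⁻¹ * (y * u * y⁻¹ * u⁻¹) := by group
    change y * q * u * (y * q)⁻¹ * u⁻¹ ∈ _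
    rwa [e, L.conj_eq_of_mem (L.norm hy.2) this, R.central y hy.1, mul_inv_cancel_right, mul_inv_cancel,
      mul_one]
  obtain ⟨κ, hκ⟩ := S.exists_acts hc
  obtain ⟨μ, hμ⟩ := exists_acts_inv hκ
  have e5 : evM κ 171 = 5 := by
    refine (fix_b _ (evM_lt _ _) fun k hk => ?_).resolve_left fun e =>
      absurd (evM_inj hκ (by decide) (by decide) (e.trans (evM_zero κ).symm)) (by decide)
    have h2 : 2 ^ k < 8 := Nat.pow_lt_pow_right (a := 2) (n := 3) (by decide) hk
    obtain ⟨x, hx⟩ := sur (0, ⟨2 ^ k, h2⟩)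
    have e1 := e x x.2
    rw [show i x = 0 from congrArg (·.1.1) hx, show j x = 2 ^ k from congrArg (·.2.1) hx, S.F.fr_zero, one_mul,
      S.T_eq ((by decide +kernel : ∀ k < 3, chk (bw (2 ^ k)) (sw k) = true) k hk)] at e1
    have e2 : S.T (sw k) * S.F.fr (ev κ 427) * (S.T (sw k))⁻¹ =
        c * (x * u * (x : G)⁻¹ * u⁻¹) * c⁻¹ * S.F.fr (ev κ 427) := by
      rw [← e1, ← hκ.conj, ← hu]; group
    rw [L.conj_eq_of_mem (L.norm (mem_centralizer_singleton_iff.2 hc)) (mv x x.2)] at e2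
    rw [show (171 : ℕ) = 427 % 256 from rfl, evM_mod, evM_eq κ, evM_mod]
    rcases L.mem_iff.1 (mv x x.2) with e3 | e3 <;> rw [e3] at e2
    · exact evM_of_conj (S.acts_s hk) (ev_lt _ _) (e2.trans (one_mul _))
    · rw [← S.F.z_comm, ← S.F.fr_xor_256] at e2
      rw [evM_of_conj (S.acts_s hk) (Nat.xor_lt_two_pow (n := 9) (ev_lt _ _) (by decide)) e2]
      exact Nat.xor_mod_two_pow (n := 8) |>.trans (Nat.xor_zero _)
  exact ⟨c⁻¹, μ, hμ, e5 ▸ (evM_inv hκ hμ (by decide)).2⟩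

end Cfsg.Lib.O83
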