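import Cfsg.Agent.O83.Bas
import Cfsg.Agent.Trans.GenFitting
import Cfsg.Agent.Trans.SylowIn

/-!
The generalized Fitting subgroup is simple and contains the image of `Ω₈⁺(2)`.
-/

set_option autoImplicit false

namespace Cfsg.Lib.O83

open Cfsg Cfsg.Lib.SporChar Cfsg.Lib.SporChar.Co Cfsg.Lib.Local Cfsg.Lib.Spor Subgroup
open Cfsg.Lib.Trans
open scoped Pointwise

variable {G : Type*} [Group G] [Finite G]

theorem St.fs_z (S : St G) {N : Subgroup G} (hn : S.F.sub ≤ normalizer (N : Set G)) (h1 : N ≠ ⊥) :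
    S.F.z ∈ N := by
  have L := S.lxF.large_of_conj_mem (g := S.T nw)
    (by rw [S.nw_z, S.fr_T, S.z_T]; exact S.T_ne (by decide +kernel))
    (by rw [S.nw_z]; exact S.F.fr_mem (by decide))
  obtain ⟨R, hR, h3⟩ := exists_isSylowIn_ge S.lxF.isPGroup (le_sup_right : S.F.sub ≤ N ⊔ S.F.sub)
  have h4 := hR.inf_normal_of_le (sup_le le_normalizer hn) le_sup_left
  obtain ⟨c, hc, k, -, o⟩ := Solv.PG.exists_mem_centralizer_orderOf_eq S.lxF.isPGroup h4.isPGroup
    ((le_inf (h3.trans le_normalizer) hn).trans inf_normalizer_le_normalizer_inf)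
    fun e => h1 (L.2.2.2 N (Nat.odd_iff.2 (Nat.two_dvd_ne_zero.1 (h4.eq_bot_iff.1 e))) hn)
  rcases S.lxF.mem_iff.1 (S.lxF.cent k) with rfl | rfl
  · simp at o
  · exact hc.2

theorem St.fs_K (S : St G) {N : Subgroup G} (hn : S.K ≤ normalizer (N : Set G)) (h1 : N ≠ ⊥) :
    S.K ≤ N := by
  have : (N.comap S.θ).Normal := ⟨fun x hx g => by
    simpa using (mem_normalizer_iff.1 (hn ⟨g, rfl⟩) _).1 hx⟩
  rintro - ⟨x, rfl⟩
  exact ((this.eq_bot_or_eq_top).resolve_left fun e =>
    F0.ne (e.le (S.fs_z (S.sub_le.trans hn) h1))).ge (mem_top x)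

theorem St.fs (S : St G) : IsSimpleGroup (generalizedFittingSubgroup G) ∧
    S.K ≤ generalizedFittingSubgroup G := by
  have hn : ∀ N : Subgroup G, N.Normal → N ≠ ⊥ → S.K ≤ N := fun N _ h =>
    S.fs_K (by rw [normalizer_eq_top]; exact le_top) h
  have nc : ¬ S.K ≤ centralizer (S.K : Set G) := fun h => S.lxF.nab
    (((S.sub_le.trans h).trans (centralizer_le S.sub_le)).trans S.lxF.cent)
  have hc : Nat.card S.K = 174182400 :=
    (Nat.card_congr (MonoidHom.ofInjective S.inj).toEquiv).symm.trans card_Om8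
  have h1 : pPrimeCore 2 G = ⊥ := by_contra fun h => by
    have := (Solv.coprime_card_pPrimeCore 2 G).coprime_dvd_left
      (card_dvd_of_le (hn _ inferInstance h))
    rw [hc] at this
    exact absurd this (by decide)
  have h2 : pCore 2 G = ⊥ := by_contra fun h => by
    obtain ⟨n, e⟩ := ((Solv.pCore_isPGroup 2 G).to_le (hn _ inferInstance h)).exists_card_eq
    exact absurd ((Nat.prime_three.dvd_of_dvd_pow (n := n) (m := 2))
      (by rw [← e, hc]; decide)) (by decide)
  have : Nontrivial G := ⟨⟨_, 1, S.lxF.ne_one⟩⟩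
  have h3 := hn _ inferInstance (genFitting_ne_bot G)
  have hF : generalizedFittingSubgroup G = layer G := by
    rw [genFitting_eq_layer_sup_pCore h1, h2, sup_bot_eq]
  obtain ⟨K, hK⟩ := exists_isComponent_of_layer_ne_bot (hF ▸ genFitting_ne_bot G)
  have h4 : ∀ L : Subgroup G, IsComponent L → S.K ≤ L := fun L hL =>
    S.fs_K (h3.trans (IsComponent.genFitting_le_normalizer hL)) (IsComponent.ne_bot hL)
  have h5 : generalizedFittingSubgroup G = K := hF.trans (le_antisymm (layer_le_iff.2 fun L hL => by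
    by_contra h
    exact nc fun x hx y hy => commute_of_commutator_eq_bot
      (IsComponent.commutator_eq_bot_of_ne hL hK fun e => h e.le) (h4 L hL hy) (h4 K hK hx))
    (IsComponent.le_layer hK))
  refine ⟨h5 ▸ IsQuasisimple.isSimpleGroup_of_center_eq_bot hK.2 ?_, h3⟩
  rw [← map_eq_bot_iff_of_injective _ K.subtype_injective, Trans.map_subtype_center]
  by_contra h
  exact nc ((S.fs_K ((le_inf ((h4 K hK).trans le_normalizer) ((h4 K hK).trans (le_normalizer.trans
    (normalizer_le_normalizer_centralizer K)))).trans inf_normalizer_le_normalizer_inf) h).trans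
      (inf_le_right.trans (centralizer_le (h4 K hK))))

end Cfsg.Lib.O83
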