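import Cfsg.Agent.O83.Bas
import Cfsg.Agent.SporChar.Singular

/-!
Irreducibility of `Q / ⟨z⟩`.
-/

set_option autoImplicit false

namespace Cfsg.Lib.O83

open Cfsg Cfsg.Lib.SporChar Cfsg.Lib.SporChar.Co Cfsg.Lib.Local Cfsg.Lib.Spor Subgroup
open scoped Pointwise

theorem xor_induction {p : ℕ → Prop} (h0 : p 0) (hx : ∀ a < 256, ∀ b < 256, p a → p b → p (a ^^^ b))
    (hb : ∀ k < 8, p (2 ^ k)) : ∀ w < 256, p w := by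
  have key : ∀ n ≤ 8, ∀ v < 2 ^ n, p v := by
    intro n
    induction n with
    | zero => intro _ v hv; rwa [show v = 0 by omega]
    | succ n ih =>
      intro hn v hv
      by_cases h1 : v < 2 ^ n
      · exact ih (by omega) v h1
      · have l : 2 ^ (n + 1) ≤ 2 ^ 8 := Nat.pow_le_pow_right (by norm_num) hn
        have : ∀ n < 8, ∀ v < 256, v < 2 ^ (n + 1) → ¬ v < 2 ^ n → v = 2 ^ n ^^^ (v - 2 ^ n) := by
          decide +kernel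
        rw [this n (by omega) v (by omega) hv h1]
        exact hx _ (by omega) _ (by omega) (hb n (by omega)) (ih (by omega) _ (by omega))
  exact key 8 le_rfl

/-- The action of a word in the six codes. -/
def irrW (w : List ℕ) (v : ℕ) : ℕ :=
  w.foldr (fun k x => evM (if k % 6 < 3 then κτ (k % 6) else κs (k % 6 - 3)) x) v

/-- A sum of images. -/
def irrS (ws : List (List ℕ)) (v : ℕ) : ℕ := ws.foldr (fun w x => irrW w v ^^^ x) 0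

/-- Words reaching the vector `5`. -/
def irrA : List (List (List ℕ)) := [[],
  [[2,2]],
  [[2,2,1,1]],
  [[2,2,1]],
  [[2]],
  [[]],
  [[1],[4,1]],
  [[1,1],[1,4]],
  [[2,1,1]],
  [[1],[4,1]],
  [[1,1]],
  [[],[4]],
  [[2,1]],
  [[2],[4,2]],
  [[],[4]],
  [[1]],
  [[2,1,1,0,0]],
  [[2],[5,2]],
  [[1,1,0],[3,1,1,0]],
  [[2],[5,3,2]],
  [[2,0,0],[0,3,2]],
  [[2],[5,2]],
  [[0],[5,1,0,0]],
  [[0],[4,2]],
  [[2,1,1,0]],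
  [[0],[4,3,0]],
  [[2,1,1],[3,2,1,1]],
  [[2],[5,3,2]],
  [[2,0],[3,2,0]],
  [[0],[3,0]],
  [[0,0],[5,1,0]],
  [[2],[4,0,0]],
  [[2,0,0]],
  [[0],[3,0]],
  [[],[4,3]],
  [[],[4,3]],
  [[2,0]],
  [[2],[3,2]],
  [[],[4,3]],
  [[],[4,3]],
  [[2],[3,2]],
  [[2],[3,2]],
  [[],[4]],
  [[],[4]],
  [[2],[3,2]],
  [[2],[3,2]],
  [[],[4]],
  [[],[4]],
  [[2,1,0,0]],
  [[1],[5,0,0]],
  [[1],[4,3,1]],
  [[1,0],[3,1,0]],
  [[2,1],[3,2,1]],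
  [[1],[4,1]],
  [[0],[4,2]],
  [[0],[5,4,3,0]],
  [[2,0],[3,2,0]],
  [[0],[3,0]],
  [[1],[4,1]],
  [[0,0],[5,1,1,0]],
  [[2,1,0]],
  [[0],[5,1]],
  [[1],[4,3,1]],
  [[2,1],[3,2,1]],
  [[2,2,1,1,0,0]],
  [[2,2,0,0],[0,3,2,2]],
  [[2,2,1,1,0]],
  [[2,2,0],[3,2,2,0]],
  [[0,0],[5,1,1]],
  [[0,0],[0,3]],
  [[0],[4,3,0]],
  [[0],[3,0]],
  [[1,1,0],[3,1,1,0]],
  [[0],[5,1,0,0]],
  [[1,1,0,0],[0,3,1,1]],
  [[0,0],[5,1,0]],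
  [[1,1],[1,4,3]],
  [[0],[5,3,0]],
  [[1,0],[5,1,1]],
  [[0,0],[4,2,2]],
  [[1,1,0,0]],
  [[],[5]],
  [[1,1],[3,1,1]],
  [[],[5,3]],
  [[],[5]],
  [[0,0],[0,3]],
  [[],[5,3]],
  [[2,0],[5,2,1,0,0]],
  [[1,1],[3,1,1]],
  [[],[5,3]],
  [[1,1,0]],
  [[],[5]],
  [[],[5,3]],
  [[1,1],[1,4]],
  [[],[5]],
  [[0],[3,0]],
  [[1,0,0],[4,1,0,0]],
  [[1],[5,1,1,0]],
  [[0],[4,3,0]],
  [[0],[3,0]],
  [[0,0],[4,0,3]],
  [[1],[5,4,1]],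
  [[1,0],[4,1,0]],
  [[1],[3,2,1,1]],
  [[0],[5,1]],
  [[1,0],[3,1,0]],
  [[1],[5,4,1]],
  [[1],[3,1],[4,1],[5,1]],
  [[0],[5,3,0]],
  [[0],[3,0],[4,0],[5,0]],
  [[1],[5,0,0]],
  [[2,0],[4,2,2]],
  [[0,0],[4,0,0]],
  [[],[5,4]],
  [[1,0],[4,3,1,0]],
  [[],[4,2,0]],
  [[],[5,4]],
  [[0,0],[0,3]],
  [[],[5,4,3]],
  [[],[3],[4],[5]],
  [[],[5,1,0]],
  [[],[3],[4],[5]],
  [[],[5,4]],
  [[0],[3,0]],
  [[1,0,0],[5,1,1,0]],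
  [[],[5,4,3]],
  [[0],[4,0]],
  [[],[5,4]],
  [[2,2,0,0]],
  [[2,2,0]],
  [[2,2],[3,2,2]],
  [[2,2],[3,2,2]],
  [[0],[3,0]],
  [[0,0],[0,3]],
  [[2,2],[2,5]],
  [[1,0],[5,1,1,0,0]],
  [[],[4,3]],
  [[],[4,3]],
  [[],[4]],
  [[],[4]],
  [[],[4,3]],
  [[],[4,3]],
  [[],[4]],
  [[],[4]],
  [[1,0,0],[4,1,0,0]],
  [[2],[5,4,2]],
  [[0],[5,1]],
  [[0],[5,3,0]],
  [[1],[5,1,1,0]],
  [[1],[3,2]],
  [[2],[5,4,3,2]],
  [[0],[3,0],[4,0],[5,0]],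
  [[0],[4,3,0]],
  [[1,0],[4,1,0]],
  [[1],[5,4,1]],
  [[1],[3,2]],
  [[0],[3,0]],
  [[1],[5,4,3,1]],
  [[1],[3,1],[4,1],[5,1]],
  [[2],[4,2,2,0]],
  [[0,0]],
  [[],[3]],
  [[],[3]],
  [[],[3]],
  [[],[3]],
  [[0]],
  [[],[3]],
  [[],[3]],
  [[],[3]],
  [[],[3]],
  [[],[3]],
  [[],[3]],
  [[],[3]],
  [[],[3]],
  [[],[3]],
  [[],[3]],
  [[2,0,0],[4,2,0,0]],
  [[2],[5,4,2]],
  [[0],[5,3,0]],
  [[0],[4,2]],
  [[1,0],[5,1,1]],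
  [[2],[3,1,1]],
  [[0],[3,0],[4,0],[5,0]],
  [[2],[3,2,2,1]],
  [[0],[3,0]],
  [[2,0],[3,2,0]],
  [[2],[5,2,1,0]],
  [[2],[3,2],[4,2],[5,2]],
  [[0],[4,3,0]],
  [[2,0],[4,2,0]],
  [[2],[4,0,0]],
  [[0,0],[5,0,3]],
  [[2,2,1,0,0]],
  [[2,2,1],[3,2,2,1]],
  [[2,2,0],[3,2,2,0]],
  [[2,2,1,0]],
  [[1],[5,0,0]],
  [[1],[4,1]],
  [[0],[3,0]],
  [[0],[5,1]],
  [[1],[4,3,1]],
  [[0],[5,3,0]],
  [[1],[4,1]],
  [[1],[4,3,1]],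
  [[1,0],[3,1,0]],
  [[0],[4,2,0,0]],
  [[0,0],[4,2,0]],
  [[1,0,0],[0,3,1]],
  [[0,0],[4,0,0]],
  [[],[5,4]],
  [[],[5,1,0]],
  [[2,0],[5,3,2,0]],
  [[],[5,4]],
  [[0,0],[0,3]],
  [[],[3],[4],[5]],
  [[],[5,4,3]],
  [[1,0],[4,3,1,0]],
  [[],[3,2,1]],
  [[],[5,4]],
  [[0],[4,0]],
  [[],[5,4,3]],
  [[],[3],[4],[5]],
  [[0],[3,0]],
  [[],[5,4]],
  [[1,1,0,0],[1,4,0,0]],
  [[1,0],[5,1,1]],
  [[0],[3,0]],
  [[0],[4,3,0]],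
  [[0,0],[5,1,0]],
  [[0,0],[0,3]],
  [[1,1],[3,2,1]],
  [[1,1,0],[1,4,0]],
  [[0],[5,3,0]],
  [[0],[3,0],[4,0],[5,0]],
  [[2,0],[5,2,1]],
  [[0,0],[5,1,1]],
  [[0],[5,1,1]],
  [[2,1],[3,2,2]],
  [[0,0],[0,3],[1,4],[2,5]],
  [[0,0],[4,2,0]],
  [[1,0,0]],
  [[],[5]],
  [[],[5,3]],
  [[1],[3,1]],
  [[],[5]],
  [[1],[3,1]],
  [[1],[3,1]],
  [[],[5,3]],
  [[],[5,3]],
  [[1],[3,1]],
  [[0],[3,0]],
  [[],[5]],
  [[1],[3,1]],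
  [[],[5,3]],
  [[],[5]],
  [[1,0]]]

theorem irrA_spec : ∀ v < 256, v ≠ 0 → irrS (irrA.getD v []) v = 5 := by decide +kernel

theorem irrB_spec : ∀ k < 8, irrS ([[[2]], [[2, 1]], [[2, 2]], [[2, 2, 1]], [[2, 2, 1, 0]], [[2, 2, 0]], [[2, 1, 0]], [[2, 0]]].getD k []) 5 = 2 ^ k := by decide +kernel

theorem fIrr : FIrr := fun p hx hm v hv h0 hp => by
  have h1 : ∀ w, ∀ v < 256, p v → irrW w v < 256 ∧ p (irrW w v) := fun w v hv hp => by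
    induction w with
    | nil => exact ⟨hv, hp⟩
    | cons k w ih =>
      refine ⟨evM_lt _ _, ?_⟩
      change p (evM (if _ then _ else _) (irrW w v))
      split_ifs with h
      exacts [(hm _ h _ ih.1 ih.2).1, (hm _ (by omega) _ ih.1 ih.2).2]
  have p0 : p 0 := Nat.xor_self v ▸ hx v hv v hv hp hp
  have h2 : ∀ ws, ∀ v < 256, p v → irrS ws v < 256 ∧ p (irrS ws v) := fun ws v hv hp => by
    induction ws with
    | nil => exact ⟨by norm_num [irrS], p0⟩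
    | cons w ws ih =>
      exact ⟨Nat.xor_lt_two_pow (n := 8) (h1 w v hv hp).1 ih.1,
        hx _ (h1 w v hv hp).1 _ ih.1 (h1 w v hv hp).2 ih.2⟩
  have p5 : p 5 := irrA_spec v hv h0 ▸ (h2 _ v hv hp).2
  exact xor_induction p0 hx fun k hk => irrB_spec k hk ▸ (h2 _ 5 (by norm_num) p5).2

theorem exists_fix {H : Type*} [Group H] (F : Frame H) {R : Subgroup H} (hR : IsPGroup 2 R)
    (hn : R ≤ normalizer (F.sub : Set H)) :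
    ∃ v < 256, v ≠ 0 ∧ ∀ r ∈ R, ∀ κ, F.Acts r κ → evM κ v = v := by
  letI : MulAction R (Fin 4 ⊕ Fin 4 → ZMod 2) :=
    MulAction.compHom _ (F.orth.comp (inclusion hn))
  have : Fact (Nat.Prime 2) := ⟨Nat.prime_two⟩
  obtain ⟨b, hb, ne⟩ := hR.exists_fixed_point_of_prime_dvd_card_of_fixed_point
    (Fin 4 ⊕ Fin 4 → ZMod 2) (a := 0) (by simp) (fun r => smul_zero (F.orth (inclusion hn r)))
  obtain ⟨v, hv, rfl⟩ := vec_surj b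
  refine ⟨v, hv, fun e => ne (by rw [e, vec_256.1]), fun r hr κ h => vec_inj (evM_lt _ _) hv ?_⟩
  rw [evM_eq, vec_mod, ← Frame.orth_smul (c := ⟨r, hn hr⟩) h]
  exact hb ⟨r, hr⟩

/-- A 2-group normalising `Q` and normalised by the six elements acts trivially modulo the centre. -/
theorem triv_of_norm {H : Type*} [Group H] (F : Frame H) {R : Subgroup H} (hR : IsPGroup 2 R)
    (hn : R ≤ normalizer (F.sub : Set H))
    (h : ∀ k < 3, (∃ c ∈ normalizer (R : Set H), F.Acts c (κτ k)) ∧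
      ∃ c ∈ normalizer (R : Set H), F.Acts c (κs k)) {r : H} (hr : r ∈ R) {κ : ℕ} (a : F.Acts r κ) :
    ∀ v < 256, evM κ v = v := by
  obtain ⟨v, hv, h0, hp⟩ := exists_fix F hR hn
  have key : ∀ {μ : ℕ}, (∃ c ∈ normalizer (R : Set H), F.Acts c μ) → ∀ a < 256,
      (∀ r ∈ R, ∀ κ, F.Acts r κ → evM κ a = a) → ∀ r ∈ R, ∀ κ, F.Acts r κ →
      evM κ (evM μ a) = evM μ a := by
    rintro μ ⟨c, hc, k⟩ a ha hp r hr κ k'
    obtain ⟨ν, ki⟩ := exists_acts_inv k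
    have m : c⁻¹ * (r * c) ∈ R := by
      simpa [mul_assoc] using (mem_normalizer_iff.1 (inv_mem hc) r).1 hr
    have := hp _ m _ (ki.mul (k'.mul k))
    rw [evM_mul ki (k'.mul k) (ki.mul (k'.mul k)), evM_mul k' k (k'.mul k)] at this
    rw [← (evM_inv k ki (evM_lt κ (evM μ a))).1, this]
  exact fun w hw => fIrr (fun v => ∀ r ∈ R, ∀ κ, F.Acts r κ → evM κ v = v)
    (fun a _ b _ ha hb r hr κ k => by rw [evM_xor, ha r hr κ k, hb r hr κ k])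
    (fun k hk a ha hp => ⟨key (h k hk).1 a ha hp, key (h k hk).2 a ha hp⟩) v hv h0 hp w hw r hr κ a

theorem St.qOf_eq {G : Type*} [Group G] [Finite G] (S : St G) : qOf S.F.z = S.F.sub := by
  refine le_antisymm (fun r hr => ?_) S.lxF.le_pCore
  have le : qOf S.F.z ≤ centralizer {S.F.z} := map_subtype_le _
  have n : centralizer {S.F.z} ≤ normalizer (qOf S.F.z : Set G) := fun c hc => by
    have := qOf_conj c S.F.z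
    rw [mul_inv_eq_iff_eq_mul.2 (mem_centralizer_singleton_iff.1 hc)] at this
    exact Solv.mem_normalizer_iff_conj_smul_eq.2 this.symm
  obtain ⟨κ, a⟩ := S.exists_acts (mem_centralizer_singleton_iff.1 (le hr))
  exact S.mem_sub_of_triv a fun k hk => triv_of_norm S.F ((Solv.pCore_isPGroup 2 _).map _)
    (le.trans S.lxF.norm) (fun k hk =>
      ⟨⟨_, n (mem_centralizer_singleton_iff.2 (S.acts_τ hk).comm_z), S.acts_τ hk⟩,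
        ⟨_, n (mem_centralizer_singleton_iff.2 (S.acts_s hk).comm_z), S.acts_s hk⟩⟩) hr a _
    (Nat.pow_lt_pow_right (by norm_num) hk : 2 ^ k < 2 ^ 8)

end Cfsg.Lib.O83
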