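import Cfsg.Agent.O83.Bas

/-!
The vectors of weight one are preserved.
-/

set_option autoImplicit false

namespace Cfsg.Lib.O83

open Cfsg Cfsg.Lib.SporChar Cfsg.Lib.SporChar.Co Cfsg.Lib.Local Cfsg.Lib.Spor Subgroup

theorem Mon_char : ∀ v < 256, (typ v = 6 ↔ ¬ typ v ≤ 5 ∧ ∀ s < 256, typ s = 1 ∨ typ s = 2 →
    ¬ (typ (v ^^^ s) ≤ 5 ∧ v ^^^ s ≠ 0 ∧ ¬ (typ (v ^^^ s) = 1 ∨ typ (v ^^^ s) = 2))) := by
  decide +kernel

variable {G : Type*} [Group G]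

theorem St.mon {S : St G} (p : S.Pt 2) : S.Mon := by
  intro c κ h v hv h6
  have z : ∀ v < 256, evM κ v = 0 ↔ v = 0 := fun v hv =>
    ⟨fun e => evM_inj h hv (by norm_num) (e.trans (evM_zero κ).symm), fun e => e ▸ evM_zero κ⟩
  have a : ∀ v < 256, typ (evM κ v) = 1 ∨ typ (evM κ v) = 2 ↔ typ v = 1 ∨ typ v = 2 := by
    intro v hv
    by_cases v0 : v = 0
    · rw [v0, evM_zero]
    have h1 := p v (by omega)
    have h2 := p _ (ev_lt κ v)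
    have n : ev κ v ≠ 256 := fun e => v0 ((z v hv).1 (by rw [evM_eq, e]))
    have k : IsConj (S.F.fr v) (S.F.fr (ev κ v)) := isConj_iff.2 ⟨c, h.conj v⟩
    rw [typ_ev, or_iff_right n] at h2
    rw [or_iff_right (by omega)] at h1
    rw [← h1, ← h2]
    exact ⟨fun e => e.trans k.symm, fun e => e.trans k⟩
  have b : ∀ v < 256, typ (evM κ v) ≤ 5 ↔ typ v ≤ 5 := fun v hv => by
    rw [← qN_typ _ (evM_lt _ _), ← qN_typ _ hv, qN_evM h hv]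
  obtain ⟨μ, h'⟩ := exists_acts_inv h
  obtain ⟨h1, h2⟩ := (Mon_char v hv).1 h6
  refine (Mon_char _ (evM_lt _ _)).2 ⟨by rwa [b v hv], fun s hs e => ?_⟩
  have l := Nat.xor_lt_two_pow (n := 8) hv (evM_lt μ s)
  rw [← (evM_inv h h' hs).1] at e ⊢
  rw [← evM_xor, b _ l, a _ l, Ne, z _ l]
  exact h2 _ (evM_lt _ _) ((a _ (evM_lt _ _)).1 e)

end Cfsg.Lib.O83
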