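import Cfsg.Agent.O83.Bas
import Cfsg.Agent.X9P.Defs

/-!
The interface to the recognition of `PΩ₈⁺(3)`.
-/

set_option autoImplicit false

namespace Cfsg.Lib.O83

open Cfsg Cfsg.Lib.SporChar Cfsg.Lib.SporChar.Co Cfsg.Lib.Local Cfsg.Lib.Spor Subgroup
open Cfsg.Lib.LX Cfsg.Lib.X9P
open scoped Pointwise

/-- Coordinates with respect to the four planes. -/
def co (v : ℕ) : V4 := fun k => ((bN (v % 256) (pv k 1) : ZMod 2), (bN (v % 256) (pv k 0) : ZMod 2))

theorem co_mod (v : ℕ) : co (v % 256) = co v := by unfold co; rw [Nat.mod_mod]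

theorem pv_lt : ∀ k : Fin 4, pv k 0 < 256 ∧ pv k 1 < 256 := by decide

theorem co_of_vec {a b c : ℕ} (h : vec c = vec a + vec b) : co c = co a + co b := by
  have e : ∀ v w, w < 256 → (bN (v % 256) w : ZMod 2) = (vec v ∘ Sum.swap) ⬝ᵥ vec w := fun v w hw => by
    rw [← dot_vec (Nat.mod_lt _ (by norm_num)) hw, vec_mod]
  funext k
  simp only [co, Pi.add_apply, Prod.mk_add_mk, e _ _ (pv_lt k).1, e _ _ (pv_lt k).2, h]
  rw [show (vec a + vec b) ∘ Sum.swap = vec a ∘ Sum.swap + vec b ∘ Sum.swap from rfl,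
    add_dotProduct, add_dotProduct]

theorem co_xor (a b : ℕ) : co (a ^^^ b) = co a + co b := co_of_vec (vec_xor a b)
theorem co_mulN (a b : ℕ) : co (mulN a b) = co a + co b := co_of_vec (vec_mulN a b)

theorem co_zero : ∀ i < 512, co i = 0 ↔ i = 0 ∨ i = 256 := by decide +kernel

theorem co_inj {a b : ℕ} (ha : a < 256) (hb : b < 256) (h : co a = co b) : a = b := by
  have l := Nat.xor_lt_two_pow (n := 8) ha hb
  have := (co_zero (a ^^^ b) (by omega)).1 (by
    rw [co_xor, h]; funext k; ext <;> exact CharTwo.add_self_eq_zero (R := ZMod 2) _)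
  exact Nat.xor_eq_zero_iff.1 (by omega)

theorem co_surj (w : V4) : ∃ v < 256, co v = w := by
  obtain ⟨i, hi⟩ := ((Fintype.bijective_iff_injective_and_card (fun i : Fin 256 => co i)).2
    ⟨fun i j e => Fin.ext (co_inj i.2 j.2 e), by simp⟩).2 w
  exact ⟨i, i.2, hi⟩

theorem q4_co : ∀ v < 256, q4 (co v) = (qN v : ZMod 2) := by decide +kernel

theorem q4_add (u v : V4) : q4 (u + v) = q4 u + q4 v + b4 u v := by
  simp only [q4, q2, b4, om2, Pi.add_apply, Prod.fst_add, Prod.snd_add]; ring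

theorem b4_co {a b : ℕ} (ha : a < 256) (hb : b < 256) : b4 (co a) (co b) = (bN a b : ZMod 2) := by
  have h := q4_add (co a) (co b)
  rw [← co_xor, q4_co _ (Nat.xor_lt_two_pow (n := 8) ha hb), q4_co _ ha, q4_co _ hb] at h
  have h2 := (ZMod.natCast_eq_natCast_iff' _ _ 2).2 (bN_pol a ha b hb)
  push_cast at h2
  exact add_left_cancel (h.symm.trans h2)

/-- The code of a vector. -/
noncomputable def un (w : V4) : ℕ := (co_surj w).choose

theorem un_lt (w : V4) : un w < 256 := (co_surj w).choose_spec.1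
theorem co_un (w : V4) : co (un w) = w := (co_surj w).choose_spec.2
theorem un_co (v : ℕ) : un (co v) = v % 256 :=
  co_inj (un_lt _) (Nat.mod_lt _ (by norm_num)) (by rw [co_un, co_mod])

/-- The linear map of a code. -/
noncomputable def lin (κ : ℕ) : V4 →ₗ[ZMod 2] V4 :=
  (AddMonoidHom.mk' (fun w => co (evM κ (un w))) fun u w => by
    rw [← co_xor, ← evM_xor, co_inj (un_lt (u + w)) (Nat.xor_lt_two_pow (n := 8) (un_lt u) (un_lt w))
      (by rw [co_xor, co_un, co_un, co_un])]).toZModLinearMap 2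

theorem lin_co (κ v : ℕ) : lin κ (co v) = co (evM κ v) := by
  change co (evM κ (un (co v))) = _
  rw [un_co, evM_mod]

variable {G : Type*} [Group G] (S : St G)

open Classical in
/-- The projection. -/
noncomputable def St.pr (x : G) : V4 := if h : x ∈ S.F.sub then co h.choose else 0

theorem St.pr_fr {i : ℕ} (hi : i < 512) : S.pr (S.F.fr i) = co i := by
  have h : S.F.fr i ∈ S.F.sub := S.F.fr_mem hi
  rw [St.pr, dif_pos h, S.F.fr_inj h.choose_spec.1 hi h.choose_spec.2]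

open Classical in
/-- The action. -/
noncomputable def St.rho (g : G) : V4 →ₗ[ZMod 2] V4 :=
  if h : ∃ κ, S.F.Acts g κ then lin h.choose else LinearMap.id

theorem St.rho_co {g : G} {κ : ℕ} (h : S.F.Acts g κ) (v : ℕ) : S.rho g (co v) = co (evM κ v) := by
  have h' : ∃ κ, S.F.Acts g κ := ⟨κ, h⟩
  rw [St.rho, dif_pos h', lin_co, evM_congr h'.choose_spec h]

/-- The shadow. -/
noncomputable def St.sh : Sh S.F.sub S.F.z V4 where
  pre := S.lxF
  π := S.pr
  π_mul := by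
    rintro _ ⟨i, hi, rfl⟩ _ ⟨j, hj, rfl⟩
    rw [Frame.fr_mul, S.pr_fr (mulN_lt hi hj), S.pr_fr hi, S.pr_fr hj, co_mulN]
  π_surj w := by
    obtain ⟨v, hv, rfl⟩ := co_surj w
    exact ⟨_, S.F.fr_mem (by omega : v < 512), S.pr_fr (by omega)⟩
  π_eq_zero := by
    rintro _ ⟨i, hi, rfl⟩
    rw [S.pr_fr hi, co_zero i hi, S.F.mem_zpowers, ← S.F.fr_zero, ← S.F.fr_256,
      S.F.fr_eq_iff hi (by norm_num), S.F.fr_eq_iff hi (by norm_num)]
  b := LinearMap.mk₂ (ZMod 2) b4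
    (fun _ _ _ => by simp only [b4, om2, Pi.add_apply, Prod.fst_add, Prod.snd_add]; ring)
    (fun _ _ _ => by simp only [b4, om2, Pi.smul_apply, Prod.smul_fst, Prod.smul_snd, smul_eq_mul]; ring)
    (fun _ _ _ => by simp only [b4, om2, Pi.add_apply, Prod.fst_add, Prod.snd_add]; ring)
    (fun _ _ _ => by simp only [b4, om2, Pi.smul_apply, Prod.smul_fst, Prod.smul_snd, smul_eq_mul]; ring)
  b_π := by
    rintro _ ⟨i, hi, rfl⟩ _ ⟨j, hj, rfl⟩
    rw [S.pr_fr hi, S.pr_fr hj, comm_iff _ hi hj, LinearMap.mk₂_apply, ← co_mod i, ← co_mod j,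
      b4_co (Nat.mod_lt _ (by norm_num)) (Nat.mod_lt _ (by norm_num))]
    have : bN (i % 256) (j % 256) = 0 ∨ bN (i % 256) (j % 256) = 1 := par_cases _
    rcases this with e | e <;> simp [e]
  q := q4
  q_π := by
    rintro _ ⟨i, hi, rfl⟩
    rw [S.pr_fr hi, sq_iff _ hi, ← co_mod, q4_co _ (Nat.mod_lt _ (by norm_num)), ← typ_mod,
      ← qN_typ _ (Nat.mod_lt _ (by norm_num))]
    have : qN (i % 256) = 0 ∨ qN (i % 256) = 1 := par_cases _
    rcases this with e | e <;> simp [e]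
  ρ := S.rho
  ρ_π g hg := by
    rintro _ ⟨i, hi, rfl⟩
    obtain ⟨κ, h⟩ := S.exists_acts (mem_centralizer_singleton_iff.1 hg)
    rw [h.conj, S.pr_fr hi, S.pr_fr (ev_lt _ _), S.rho_co h, evM_eq, co_mod]

theorem p3_wt : ∀ i < 512, typ i = 1 ∨ typ i = 2 → ∀ k, co i k ≠ 0 := by decide +kernel

/-- Indices of the correcting words. -/
def p3n (i : Fin 4) : ℕ := ![23, 17, 25, 13] i

/-- Codes of the correcting words. -/
def p3k (i : Fin 4) : ℕ := ![97124717791510396762, 2476547977655363717436, 4720734042474309435888, 2583637243170601984016] i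

theorem p3_acts : ∀ i, actsB (lw (p3n i)) (p3k i) = true := by decide +kernel

theorem p3_rot : ∀ i, ∀ v < 256,
    co (evM (p3k i) (evM κρ v)) = mo 1 (Pi.mulSingle i r3) (co v) := by decide +kernel

theorem p3_s : (∀ v < 256, co (evM 337738513067014494212 v) = mo 1 (fun _ => τ3) (co v)) ∧
    (∀ v < 256, co (evM 296017113136337655812 v) = mo (kl true false) 1 (co v)) ∧
    ∀ v < 256, co (evM 1197940774870763832833 v) = mo (kl false true) 1 (co v) := by
  decide +kernel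

theorem St.p3 [Finite G] {S : St G} (q : qOf S.F.z = S.F.sub) (p : S.Pt 2) (r : S.Rot) :
    ∃ Sg : LX.Sh (qOf S.F.z) S.F.z X9P.V4, X9P.P3 S.F.z (S.F.fr 5) Sg := by
  have key : ∀ (Q : Subgroup G) (e : S.F.sub = Q), ∃ Sg : Sh Q S.F.z V4, Sg.π = S.pr ∧
      Sg.ρ = S.rho ∧ Sg.q = q4 := by
    rintro _ rfl; exact ⟨S.sh, rfl, rfl, rfl⟩
  obtain ⟨Sg, e1, e2, e3⟩ := key _ q.symm
  have bb : ∀ {i κ : ℕ} {f : V4 → V4}, i < 512 → actsB (cj nw (frw i)) κ = true →
      (∀ v < 256, co (evM κ v) = f (co v)) →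
      ∃ a ∈ BB S.F.z (S.F.fr 5), ∀ v, Sg.ρ a v = f v := fun {i κ f} hi h k => by
    refine ⟨_, ⟨?_, mem_centralizer_singleton_iff.2 (S.acts_T h).comm_z⟩, fun w => ?_⟩
    · rw [← S.nw_z, S.T_cj, ← S.fr_T]
      exact mem_qOf_conj (q ▸ S.F.fr_mem hi)
    · obtain ⟨v, hv, rfl⟩ := co_surj w
      rw [e2, S.rho_co (S.acts_T h), k v hv]
  refine ⟨Sg, ⟨Sg.pre, isConj_iff.2 ⟨_, S.nw_z⟩, q ▸ S.F.fr_mem (by norm_num), fun e => ?_⟩, ?_,
    fun v => by rw [e3], fun x n k => ?_, fun i => ?_, bb (i := 114) (by norm_num) (by decide +kernel) p3_s.1,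
    bb (i := 112) (by norm_num) (by decide +kernel) p3_s.2.1,
    bb (i := 34) (by norm_num) (by decide +kernel) p3_s.2.2⟩
  · exact absurd (S.F.fr_inj (by norm_num) (by norm_num) (e.trans S.F.fr_256.symm)) (by norm_num)
  · rw [e1, S.pr_fr (by norm_num)]; decide +kernel
  · obtain ⟨i, hi, rfl⟩ : x ∈ S.F.sub := q ▸ n.mem
    rw [e1, S.pr_fr hi]
    exact p3_wt i hi (((p i hi).1 n.cj).resolve_left fun e => n.ne (e ▸ S.F.fr_256)) k
  · obtain ⟨c, κ, h, e⟩ := r
    have h2 := (S.acts_T (p3_acts i)).mul h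
    refine ⟨_, mem_centralizer_singleton_iff.2 h2.comm_z, fun w => ?_⟩
    obtain ⟨v, hv, rfl⟩ := co_surj w
    rw [e2, S.rho_co h2, evM_mul (S.acts_T (p3_acts i)) h h2, e v hv, p3_rot i v hv]

end Cfsg.Lib.O83
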