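import Cfsg.Agent.O83.Bas

/-!
An element of `C(z)` rotating all four planes.
-/

set_option autoImplicit false

namespace Cfsg.Lib.O83

open Cfsg Cfsg.Lib.SporChar Cfsg.Lib.SporChar.Co Cfsg.Lib.Local Cfsg.Lib.Spor Subgroup

theorem Rot_b : ∀ u < 256, typ u = 6 → typ (evM (κb 7) u) = 6 ∧
    (evM (κb 7) u = u ∨ typ (u ^^^ evM (κb 7) u) = 6) := by decide +kernel

set_option synthInstance.maxSize 2000 in
theorem Rot_c : ∀ u < 256, typ u = 6 → evM (κb 7) u = u → ∀ w < 256, typ w = 6 →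
    evM (κb 7) w = w → typ (u ^^^ w) ≠ 6 := by decide +kernel

set_option synthInstance.maxSize 2000 in
theorem Rot_pl : ∀ k < 4, ∀ j < 2, pv k j < 256 ∧ typ (pv k j) = 6 ∧
    typ (pv k 0 ^^^ pv k 1) = 6 ∧ pv k 0 ≠ pv k 1 ∧ ∀ x < 256, typ x = 6 →
      x = pv k j ∨ typ (pv k j ^^^ x) = 6 → ∃ i < 3, x = pv k i := by decide +kernel

set_option synthInstance.maxSize 2000 in
theorem Rot_fx : ∀ a < 3, ∀ b < 3, ∀ c < 3, ∀ d < 3,
    pv 0 a ^^^ pv 1 b ^^^ pv 2 c ^^^ pv 3 d = 171 → a = 1 ∧ b = 1 ∧ c = 1 ∧ d = 1 := by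
  decide +kernel

theorem Rot_ext {μ ν : ℕ} (h : ∀ k < 4, ∀ j < 2, evM μ (pv k j) = evM ν (pv k j)) (v : ℕ) :
    evM μ v = evM ν v := by
  have a : ∀ l : List (ℕ × ℕ), (∀ x ∈ l, x.1 < 4 ∧ x.2 < 2) →
      evM μ (l.foldr (fun x y => pv x.1 x.2 ^^^ y) 0) =
        evM ν (l.foldr (fun x y => pv x.1 x.2 ^^^ y) 0) := by
    intro l hl
    induction l with
    | nil => simp [evM_zero]
    | cons x l ih =>
      rw [List.foldr_cons, evM_xor, evM_xor, h _ (hl x (by simp)).1 _ (hl x (by simp)).2,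
        ih fun y hy => hl y (by simp [hy])]
  refine evM_ext (fun k hk => ?_) v
  obtain ⟨l, hl, e⟩ := (by decide +kernel : ∀ k < 8, ∃ l ∈ List.sublists
    [(0, 0), (0, 1), (1, 0), (1, 1), (2, 0), (2, 1), (3, 0), (3, 1)],
      (∀ x ∈ l, x.1 < 4 ∧ x.2 < 2) ∧ l.foldr (fun x y => pv x.1 x.2 ^^^ y) 0 = 2 ^ k) k hk
  rw [← e.2, a l e.1]

variable {G : Type*} [Group G]

theorem St.rot {S : St G} (m : S.Mon) (v : S.Mv) : S.Rot := by
  obtain ⟨c, κ, h, e⟩ := v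
  obtain ⟨κ', h'⟩ := exists_acts_inv h
  have hm := S.acts_b (j := 7) (by norm_num)
  have k := (h.mul hm).mul h'
  generalize comp (comp κ (κb 7)) κ' = μ at k
  have ev : ∀ v, evM μ v = evM κ (evM (κb 7) (evM κ' v)) := fun v => by
    rw [evM_mul (h.mul hm) h' k, evM_mul h hm (h.mul hm)]
  have fg : ∀ v < 256, evM κ (evM κ' v) = v := fun v hv => (evM_inv h h' hv).1
  have a : ∀ k < 4, ∀ j < 2, ∃ i < 3, evM μ (pv k j) = pv k i := fun k hk j hj => by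
    obtain ⟨l, t, -, -, p⟩ := Rot_pl k hk j hj
    obtain ⟨b1, b2⟩ := Rot_b _ (evM_lt _ _) (m _ _ h' _ l t)
    refine p _ (evM_lt _ _) (by rw [ev]; exact m _ _ h _ (evM_lt _ _) b1) (b2.imp (fun e => ?_) fun e => ?_)
    · rw [ev, e, fg _ l]
    · have := m _ _ h _ (Nat.xor_lt_two_pow (n := 8) (evM_lt _ _) (evM_lt _ _)) e
      rwa [evM_xor, fg _ l, ← ev] at this
  have f1 : ∀ k < 4, evM μ (pv k 1) = pv k 1 := by
    obtain ⟨i0, l0, e0⟩ := a 0 (by norm_num) 1 (by norm_num)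
    obtain ⟨i1, l1, e1⟩ := a 1 (by norm_num) 1 (by norm_num)
    obtain ⟨i2, l2, e2⟩ := a 2 (by norm_num) 1 (by norm_num)
    obtain ⟨i3, l3, e3⟩ := a 3 (by norm_num) 1 (by norm_num)
    obtain ⟨rfl, rfl, rfl, rfl⟩ := Rot_fx _ l0 _ l1 _ l2 _ l3 (by
      rw [← e0, ← e1, ← e2, ← e3, ← evM_xor, ← evM_xor, ← evM_xor,
        show pv 0 1 ^^^ pv 1 1 ^^^ pv 2 1 ^^^ pv 3 1 = 171 by decide, ev, ← e,
        (evM_inv h h' (by norm_num)).2, show evM (κb 7) 5 = 5 by decide +kernel])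
    intro k hk
    interval_cases k <;> assumption
  have f0 : ∀ k < 4, evM μ (pv k 0) = pv k 2 := fun j hj => by
    obtain ⟨i, li, ei⟩ := a j hj 0 (by norm_num)
    obtain ⟨l0, t0, t, ne, -⟩ := Rot_pl j hj 0 (by norm_num)
    obtain ⟨l1, t1, -⟩ := Rot_pl j hj 1 (by norm_num)
    have fx : ∀ v < 256, evM μ v = v → evM (κb 7) (evM κ' v) = evM κ' v := fun v hv e =>
      evM_inj h (evM_lt _ _) (evM_lt _ _) (by rw [← ev, e, fg v hv])
    interval_cases i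
    · refine (Rot_c _ (evM_lt _ _) (m _ _ h' _ l0 t0) (fx _ l0 ei) _ (evM_lt _ _)
        (m _ _ h' _ l1 t1) (fx _ l1 (f1 j hj)) ?_).elim
      rw [← evM_xor]
      exact m _ _ h' _ (Nat.xor_lt_two_pow (n := 8) l0 l1) t
    · exact (ne (evM_inj k l0 l1 (ei.trans (f1 j hj).symm))).elim
    · exact ei
  have x := Rot_ext (μ := μ) (ν := pk8 fun k => [41, 55, 135, 206, 125, 230, 235, 157].getD k 0)
    fun k hk j hj => by
      have := (by decide +kernel : ∀ k < 4, evM (pk8 fun k => [41, 55, 135, 206, 125, 230, 235,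
        157].getD k 0) (pv k 0) = pv k 2 ∧ evM (pk8 fun k => [41, 55, 135, 206, 125, 230, 235,
        157].getD k 0) (pv k 1) = pv k 1) k hk
      interval_cases j
      exacts [(f0 k hk).trans this.1.symm, (f1 k hk).trans this.2.symm]
  refine ⟨_, _, hm.mul k, fun v hv => ?_⟩
  rw [evM_mul hm k (hm.mul k), x]
  exact (by decide +kernel : ∀ v < 256, evM (κb 7) (evM (pk8 fun k => [41, 55, 135, 206, 125, 230,
    235, 157].getD k 0) v) = evM κρ v) v hv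

end Cfsg.Lib.O83
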